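import Mathlib

/-!
# Commuting graphs and elements of prime order

Elementary lemmas relating centralizer orders and commuting graphs.
-/

set_option autoImplicit false
set_option linter.unusedSectionVars false
set_option linter.style.haveILetI false

namespace Cfsg.Agent.Lib.M11Rec.Comm

open Subgroup

variable {X : Type*} [Group X] [Finite X]

/-- If elements of order divisible by `p` have order `p` and `p²` does not divide the group order,
the centralizer of an element of order `p` has order `p`. -/
theorem card_centralizer_of_order {p : ℕ} (hp : p.Prime) (h2 : ¬ p ^ 2 ∣ Nat.card X)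
    (hno : ∀ g : X, p ∣ orderOf g → orderOf g = p) {y : X} (hy : orderOf y = p) :
    Nat.card (centralizer ({y} : Set X)) = p := by
  classical
  have hyC : y ∈ centralizer ({y} : Set X) := by
    rw [mem_centralizer_iff]
    intro h hh
    rw [Set.mem_singleton_iff.1 hh]
  have hpC : p ∣ Nat.card (centralizer ({y} : Set X)) := by
    have := orderOf_dvd_natCard (⟨y, hyC⟩ : centralizer ({y} : Set X))
    rwa [Subgroup.orderOf_mk, hy] at this
  have hne : Nat.card (centralizer ({y} : Set X)) ≠ 0 := Nat.card_pos.ne'
  have huniq : ∀ {d : ℕ}, d.Prime → d ∣ Nat.card (centralizer ({y} : Set X)) → d = p := by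
    intro q hq hqd
    by_contra hqp
    haveI : Fact q.Prime := ⟨hq⟩
    obtain ⟨z, hz⟩ := exists_prime_orderOf_dvd_card' (G := centralizer ({y} : Set X)) q hqd
    have hz' : orderOf (z : X) = q := by rw [Subgroup.orderOf_coe, hz]
    have hcomm : Commute y (z : X) := by
      have := (mem_centralizer_iff.1 z.2) y rfl
      exact this
    have hcop : Nat.Coprime (orderOf y) (orderOf (z : X)) := by
      rw [hy, hz']
      exact (Nat.coprime_primes hp hq).2 (Ne.symm hqp)
    have h3 := hcomm.orderOf_mul_eq_mul_orderOf_of_coprime hcop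
    have h4 := hno (y * z) (by rw [h3, hy]; exact dvd_mul_right _ _)
    rw [h3, hy, hz'] at h4
    have h5 : p * q = p * 1 := by rw [h4, mul_one]
    have h6 := Nat.eq_of_mul_eq_mul_left hp.pos h5
    exact hq.one_lt.ne' h6
  have h3 := Nat.eq_prime_pow_of_unique_prime_dvd hne huniq
  set k := (Nat.card (centralizer ({y} : Set X))).primeFactorsList.length with hk
  rw [h3] at hpC
  have hk0 : k ≠ 0 := by
    intro h0
    rw [h0, pow_zero] at hpC
    exact hp.one_lt.ne' (Nat.dvd_one.1 hpC)
  have hk2 : k < 2 := by
    by_contra hh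
    apply h2
    have h4 : p ^ 2 ∣ p ^ k := pow_dvd_pow p (not_lt.1 hh)
    have h5 : p ^ k ∣ Nat.card X := by
      rw [← h3]
      exact Subgroup.card_subgroup_dvd_card _
    exact h4.trans h5
  have hk1 : k = 1 := by omega
  rw [h3, hk1, pow_one]

/-- Elements whose centralizer has order divisible by `p`. -/
theorem of_dvd_centralizer {p : ℕ} (hp : p.Prime) (h2 : ¬ p ^ 2 ∣ Nat.card X)
    (hno : ∀ g : X, p ∣ orderOf g → orderOf g = p) {g : X} (hg : g ≠ 1)
    (hd : p ∣ Nat.card (centralizer ({g} : Set X))) :
    orderOf g = p ∧ Nat.card (centralizer ({g} : Set X)) = p := by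
  classical
  haveI : Fact p.Prime := ⟨hp⟩
  obtain ⟨z, hz⟩ := exists_prime_orderOf_dvd_card' (G := centralizer ({g} : Set X)) p hd
  have hz' : orderOf (z : X) = p := by rw [Subgroup.orderOf_coe, hz]
  have hC := card_centralizer_of_order hp h2 hno hz'
  have hgC : g ∈ centralizer ({(z : X)} : Set X) := by
    rw [mem_centralizer_iff]
    intro h hh
    rw [Set.mem_singleton_iff.1 hh]
    exact ((mem_centralizer_iff.1 z.2) g rfl).symm
  have hgp : g ^ p = 1 := by
    have := pow_card_eq_one' (G := centralizer ({(z : X)} : Set X)) (x := ⟨g, hgC⟩)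
    rw [hC] at this
    exact congrArg Subtype.val this
  have ho : orderOf g = p := orderOf_eq_prime hgp hg
  exact ⟨ho, card_centralizer_of_order hp h2 hno ho⟩

/-- Centralizer order through the commuting graph. -/
theorem card_centralizer_eq (a : X) :
    Nat.card (centralizer ({a} : Set X)) =
      Nat.card {y : {h : X // h ≠ 1} // a * y.1 = y.1 * a} + 1 := by
  classical
  rw [← Finite.card_option]
  apply Nat.card_congr
  refine (Equiv.optionSubtypeNe (1 : centralizer ({a} : Set X))).symm.trans (Equiv.optionCongr ?_)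
  refine ⟨fun y => ⟨⟨y.1.1, fun h => y.2 (Subtype.ext h)⟩, ?_⟩, fun y => ⟨⟨y.1.1, ?_⟩, ?_⟩, ?_, ?_⟩
  · have := (mem_centralizer_iff.1 y.1.2) a rfl
    exact this
  · rw [mem_centralizer_iff]
    intro h hh
    rw [Set.mem_singleton_iff.1 hh]
    exact y.2
  · intro h
    exact y.1.2 (congrArg Subtype.val h)
  · intro y
    rfl
  · intro y
    rfl

theorem card_ne_one_add (X : Type*) [Group X] [Finite X] :
    Nat.card {h : X // h ≠ 1} + 1 = Nat.card X := by
  classical
  rw [← Finite.card_option]
  exact Nat.card_congr (Equiv.optionSubtypeNe (1 : X))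

/-- Elements of prime order. -/
def equivOrder (X : Type*) [Group X] {p : ℕ} (hp : p.Prime) :
    {g : X // orderOf g = p} ≃ {x : {h : X // h ≠ 1} // orderOf x.1 = p} where
  toFun g := ⟨⟨g.1, fun h => by
    have := g.2
    rw [h, orderOf_one] at this
    exact hp.one_lt.ne this⟩, g.2⟩
  invFun x := ⟨x.1.1, x.2⟩
  left_inv _ := rfl
  right_inv _ := rfl

variable {Y : Type*} [Group Y] [Finite Y]

/-- Transfer along a commuting graph isomorphism. -/
theorem card_centralizer_transfer (f : {h : X // h ≠ 1} ≃ {g : Y // g ≠ 1})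
    (hf : ∀ x y : {h : X // h ≠ 1}, (x : X) * y = y * x ↔ ((f x) : Y) * (f y) = (f y) * (f x))
    (x : {h : X // h ≠ 1}) :
    Nat.card (centralizer ({x.1} : Set X)) = Nat.card (centralizer ({(f x).1} : Set Y)) := by
  rw [card_centralizer_eq, card_centralizer_eq]
  congr 1
  apply Nat.card_congr
  refine f.subtypeEquiv ?_
  intro y
  exact hf x y

/-- The numbers of elements of order `p` agree, when elements of order divisible by `p` have
order `p` in the target and `p²` does not divide the order. -/
theorem card_order_transfer {p : ℕ} (hp : p.Prime) (h2 : ¬ p ^ 2 ∣ Nat.card Y)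
    (hno : ∀ g : Y, p ∣ orderOf g → orderOf g = p)
    (f : {h : X // h ≠ 1} ≃ {g : Y // g ≠ 1})
    (hf : ∀ x y : {h : X // h ≠ 1}, (x : X) * y = y * x ↔ ((f x) : Y) * (f y) = (f y) * (f x)) :
    Nat.card {g : X // orderOf g = p} = Nat.card {g : Y // orderOf g = p} := by
  classical
  rw [Nat.card_congr (equivOrder X hp), Nat.card_congr (equivOrder Y hp)]
  apply Nat.card_congr
  refine f.subtypeEquiv ?_
  intro x
  have hself : ∀ a : X, a ∈ centralizer ({a} : Set X) := by
    intro a
    rw [mem_centralizer_iff]
    intro h hh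
    rw [Set.mem_singleton_iff.1 hh]
  constructor
  · intro hx
    have h3 : p ∣ Nat.card (centralizer ({x.1} : Set X)) := by
      have := _root_.orderOf_dvd_natCard (⟨x.1, hself x.1⟩ : centralizer ({x.1} : Set X))
      rwa [Subgroup.orderOf_mk, hx] at this
    rw [card_centralizer_transfer f hf x] at h3
    exact (of_dvd_centralizer hp h2 hno (f x).2 h3).1
  · intro hx
    have h3 : Nat.card (centralizer ({(f x).1} : Set Y)) = p :=
      card_centralizer_of_order hp h2 hno hx
    rw [← card_centralizer_transfer f hf x] at h3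
    have h4 := _root_.orderOf_dvd_natCard (⟨x.1, hself x.1⟩ : centralizer ({x.1} : Set X))
    rw [Subgroup.orderOf_mk, h3] at h4
    rcases (Nat.dvd_prime hp).1 h4 with h5 | h5
    · exact absurd (orderOf_eq_one_iff.1 h5) x.2
    · exact h5

end Cfsg.Agent.Lib.M11Rec.Comm
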